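import Mathlib.Dynamics.Newton
import Mathlib.RingTheory.Radical.Basic
import Mathlib.FieldTheory.Perfect
import Mathlib.FieldTheory.Separable
import Mathlib.RingTheory.LocalRing.ResidueField.Basic
import Mathlib.RingTheory.Ideal.Quotient.Operations
import Mathlib.RingTheory.Ideal.Quotient.Nilpotent
import Mathlib.Algebra.CharP.Lemmas
import Mathlib.Algebra.CharP.Reduced
import Mathlib.RingTheory.Polynomial.UniqueFactorization
import Mathlib.Data.Nat.ModEq

/-!
Lifting a trivialization of a torsion invertible module along a nil thickening, in cocycle form: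
a cochain `b` whose coboundary is trivial modulo the radical of `π` is replaced by one whose coboundary is
trivial modulo `π`.
-/

set_option autoImplicit false

namespace Groth.Agent.Models.H66.RedCore

open Polynomial

universe u

section Newton

variable {R S : Type*} [CommRing R] [CommRing S] [Algebra R S]

/-- Uniqueness of roots modulo nilpotents. -/
theorem root_unique {P : R[X]} {x r s : S} (h' : IsUnit (aeval x (derivative P)))
    (hr : IsNilpotent (x - r)) (hs : IsNilpotent (x - s)) (hr0 : aeval r P = 0) (hs0 : aeval s P = 0) :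
    r = s := by
  have h : IsNilpotent (aeval x P) := by
    have h1 := isNilpotent_aeval_sub_of_isNilpotent_sub P hr
    rwa [hr0, sub_zero] at h1
  exact (existsUnique_nilpotent_sub_and_aeval_eq_zero h h').unique ⟨hr, hr0⟩ ⟨hs, hs0⟩

/-- `h`-th roots lift along nilpotents. -/
theorem exists_hroot (h : ℕ) (hh : IsUnit (h : S)) (b c : S) (hb : IsUnit b)
    (hbc : IsNilpotent (b ^ h - c)) : ∃ b' : S, IsNilpotent (b - b') ∧ b' ^ h = c := by
  have h1 : IsNilpotent (aeval b (X ^ h - C c : S[X])) := by simpa using hbc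
  have h2 : IsUnit (aeval b (derivative (X ^ h - C c : S[X]))) := by
    simp only [derivative_sub, derivative_X_pow, derivative_C, sub_zero, map_mul, aeval_C, map_pow,
      aeval_X, Algebra.algebraMap_self, RingHom.id_apply]
    exact hh.mul (hb.pow _)
  obtain ⟨r, ⟨hr1, hr2⟩, -⟩ := existsUnique_nilpotent_sub_and_aeval_eq_zero h1 h2
  refine ⟨r, hr1, ?_⟩
  have : r ^ h - c = 0 := by simpa using hr2
  exact sub_eq_zero.1 this

/-- uniqueness of `h`-th roots modulo nilpotents. -/
theorem hroot_unique (h : ℕ) (hh : IsUnit (h : S)) (b c r s : S) (hb : IsUnit b)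
    (hr : IsNilpotent (b - r)) (hs : IsNilpotent (b - s)) (hr0 : r ^ h = c) (hs0 : s ^ h = c) :
    r = s := by
  have h2 : IsUnit (aeval b (derivative (X ^ h - C c : S[X]))) := by
    simp only [derivative_sub, derivative_X_pow, derivative_C, sub_zero, map_mul, aeval_C, map_pow,
      aeval_X, Algebra.algebraMap_self, RingHom.id_apply]
    exact hh.mul (hb.pow _)
  exact root_unique h2 hr hs (by simp [hr0]) (by simp [hs0])

end Newton

section Sep

variable {R : Type u} [CommRing R] [IsLocalRing R]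

/-- In residue characteristic zero, a monic polynomial over a local ring can be replaced by one whose reduction is
separable: there is `F` with `F ^ n ∈ (P) + 𝔪` and `1 ∈ (F) + (F') + 𝔪`. -/
theorem exists_sep [CharZero (IsLocalRing.ResidueField R)] (P : R[X]) (hP : P.Monic) :
    ∃ (F E D S : R[X]) (n : ℕ), F ^ n - P * S ∈ (IsLocalRing.maximalIdeal R).map (C : R →+* R[X]) ∧
      F * E + derivative F * D - 1 ∈ (IsLocalRing.maximalIdeal R).map (C : R →+* R[X]) := by
  classical
  set q : R →+* IsLocalRing.ResidueField R := IsLocalRing.residue R with hq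
  have hqs : Function.Surjective q := IsLocalRing.residue_surjective
  have hker : RingHom.ker (Polynomial.mapRingHom q) =
      (IsLocalRing.maximalIdeal R).map (Polynomial.C : R →+* R[X]) := by
    rw [Polynomial.ker_mapRingHom]
    congr 1
    exact IsLocalRing.ker_residue
  have hP0 : P.map q ≠ 0 := (hP.map q).ne_zero
  set f := UniqueFactorizationMonoid.radical (P.map q) with hf
  obtain ⟨n, s, hs⟩ := UniqueFactorizationMonoid.exists_dvd_radical_self_pow hP0
  have hsep : f.Separable := PerfectField.separable_iff_squarefree.2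
    UniqueFactorizationMonoid.squarefree_radical
  obtain ⟨c, d, hcd⟩ := hsep
  obtain ⟨F, hF⟩ := Polynomial.map_surjective q hqs f
  obtain ⟨E, hE⟩ := Polynomial.map_surjective q hqs c
  obtain ⟨D, hD⟩ := Polynomial.map_surjective q hqs d
  obtain ⟨S, hS⟩ := Polynomial.map_surjective q hqs s
  refine ⟨F, E, D, S, n, ?_, ?_⟩
  · rw [← hker, RingHom.mem_ker, coe_mapRingHom, Polynomial.map_sub, Polynomial.map_pow,
      Polynomial.map_mul, hF, hS, ← hs, sub_self]
  · rw [← hker, RingHom.mem_ker, coe_mapRingHom, Polynomial.map_sub, Polynomial.map_add,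
      Polynomial.map_mul, Polynomial.map_mul, ← Polynomial.derivative_map, hF, hE, hD,
      Polynomial.map_one, mul_comm f, mul_comm (derivative f), hcd, sub_self]

end Sep

/-- membership in the ideal after evaluation -/
theorem aeval_mem {R : Type u} [CommRing R] {B : Type*} [CommRing B] [Algebra R B] (I : Ideal R)
    (hI : ∀ x ∈ I, algebraMap R B x = 0) (u : B) (Z : R[X])
    (hZ : Z ∈ I.map (Polynomial.C : R →+* R[X])) : aeval u Z = 0 := by
  have h3 : I.map (Polynomial.C : R →+* R[X]) ≤ RingHom.ker (aeval (R := R) u : R[X] →+* B) := by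
    rw [Ideal.map_le_iff_le_comap]
    intro x hx
    rw [Ideal.mem_comap, RingHom.mem_ker]
    change aeval u (Polynomial.C x) = 0
    rw [aeval_C]
    exact hI x hx
  exact h3 hZ

/-- Residue characteristic zero. -/
theorem core_zero
    {R : Type u} [CommRing R] [IsLocalRing R] [CharZero (IsLocalRing.ResidueField R)]
    {I : Type*} (Q : I → Type u) [∀ i, CommRing (Q i)] [∀ i, Algebra R (Q i)]
    (Q2 : I → I → Type u) [∀ i j, CommRing (Q2 i j)] [∀ i j, Algebra R (Q2 i j)]
    (hQ : ∀ i, ∀ x ∈ IsLocalRing.maximalIdeal R, algebraMap R (Q i) x = 0)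
    (l : ∀ i j, Q i →ₐ[R] Q2 i j) (r : ∀ i j, Q j →ₐ[R] Q2 i j) (g : ∀ i j, Q2 i j)
    (h : ℕ) (hh : IsUnit (h : R))
    (a : ∀ i, Q i) (ha : ∀ i, IsUnit (a i)) (hag : ∀ i j, r i j (a j) = g i j ^ h * l i j (a i))
    (b : ∀ i, Q i) (hb : ∀ i, IsUnit (b i))
    (hbg : ∀ i j, IsNilpotent (r i j (b j) - g i j * l i j (b i)))
    (hint : ∀ u : ∀ i, Q i, (∀ i j, IsNilpotent (l i j (u i) - r i j (u j))) →
      ∃ P : R[X], P.Monic ∧ ∀ i, IsNilpotent (aeval (u i) P)) :
    ∃ b' : ∀ i, Q i, (∀ i, IsUnit (b' i)) ∧ ∀ i j, r i j (b' j) = g i j * l i j (b' i) := by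
  classical
  -- `u i = a i⁻¹ * b i ^ h`
  have hu : ∃ u : ∀ i, Q i, ∀ i, u i * a i = b i ^ h :=
    ⟨fun i => ((ha i).unit⁻¹ : (Q i)ˣ) * b i ^ h, fun i => by
      rw [mul_comm, ← mul_assoc, IsUnit.mul_val_inv, one_mul]⟩
  obtain ⟨u, hu⟩ := hu
  have hhQ : ∀ i, IsUnit (h : Q i) := fun i => by
    have := hh.map (algebraMap R (Q i)); rwa [map_natCast] at this
  have hhQ2 : ∀ i j, IsUnit (h : Q2 i j) := fun i j => by
    have := hh.map (algebraMap R (Q2 i j)); rwa [map_natCast] at this
  have hulr : ∀ i j, IsNilpotent (l i j (u i) - r i j (u j)) := by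
    intro i j
    have h1 : IsUnit (r i j (a j)) := (ha j).map (r i j)
    have h2 : (l i j (u i) - r i j (u j)) * r i j (a j) =
        - (r i j (b j) ^ h - (g i j * l i j (b i)) ^ h) := by
      rw [sub_mul, ← map_mul (r i j), hu j, hag i j]
      have h3 : l i j (u i) * (g i j ^ h * l i j (a i)) = g i j ^ h * l i j (u i * a i) := by
        rw [map_mul]; ring
      rw [h3, hu i, map_pow, map_pow, mul_pow]; ring
    have h4 : IsNilpotent ((l i j (u i) - r i j (u j)) * r i j (a j)) := by
      rw [h2, isNilpotent_neg_iff]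
      obtain ⟨c, hc⟩ := sub_dvd_pow_sub_pow (r i j (b j)) (g i j * l i j (b i)) h
      rw [hc]
      exact (Commute.all _ _).isNilpotent_mul_right (hbg i j)
    obtain ⟨w, hw⟩ := h1
    rw [← hw] at h4
    have h5 := (Commute.all _ ((w⁻¹ : (Q2 i j)ˣ) : Q2 i j)).isNilpotent_mul_right h4
    rwa [mul_assoc, Units.mul_inv, mul_one] at h5
  obtain ⟨P, hP, hPu⟩ := hint u hulr
  obtain ⟨F, E, D, S, n, hFS, hFD⟩ := exists_sep P hP
  -- `F (u i)` is nilpotent and `F' (u i)` is a unit
  have hFu : ∀ i, IsNilpotent (aeval (u i) F) := by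
    intro i
    have h1 := aeval_mem _ (hQ i) (u i) _ hFS
    rw [map_sub, map_pow, map_mul, sub_eq_zero] at h1
    have h2 : IsNilpotent (aeval (u i) F ^ n) := by
      rw [h1]
      exact (Commute.all _ _).isNilpotent_mul_right (hPu i)
    by_cases hn : n = 0
    · subst hn
      rw [pow_zero] at h2
      obtain ⟨k, hk⟩ := h2
      rw [one_pow] at hk
      exact ⟨1, by rw [pow_one, ← mul_one (aeval (u i) F), hk, mul_zero]⟩
    · exact (IsNilpotent.pow_iff_pos hn).1 h2
  have hFu' : ∀ i, IsUnit (aeval (u i) (derivative F)) := by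
    intro i
    have h1 := aeval_mem _ (hQ i) (u i) _ hFD
    rw [map_sub, map_add, map_mul, map_mul, map_one] at h1
    have h2 : aeval (u i) (derivative F) * aeval (u i) D = 1 - aeval (u i) F * aeval (u i) E := by
      linear_combination h1
    have h3 : IsUnit (1 - aeval (u i) F * aeval (u i) E) :=
      ((Commute.all _ _).isNilpotent_mul_right (hFu i)).isUnit_one_sub
    rw [← h2] at h3
    exact isUnit_of_mul_isUnit_left h3
  -- lift `u`
  choose v hv hv' using fun i =>
    existsUnique_nilpotent_sub_and_aeval_eq_zero (hFu i) (hFu' i)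
  have hv1 : ∀ i, IsNilpotent (u i - v i) := fun i => (hv i).1
  have hv2 : ∀ i, aeval (v i) F = 0 := fun i => (hv i).2
  have hvlr : ∀ i j, l i j (v i) = r i j (v j) := by
    intro i j
    have h1 : IsUnit (aeval (l i j (u i)) (derivative F)) := by
      rw [aeval_algHom_apply]; exact (hFu' i).map (l i j)
    refine root_unique h1 ?_ ?_ ?_ ?_
    · rw [← map_sub]; exact (hv1 i).map (l i j)
    · have h2 : l i j (u i) - r i j (v j) = (l i j (u i) - r i j (u j)) + r i j (u j - v j) := by
        rw [map_sub]; ring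
      rw [h2]
      exact (Commute.all _ _).isNilpotent_add (hulr i j) ((hv1 j).map (r i j))
    · rw [aeval_algHom_apply, hv2, map_zero]
    · rw [aeval_algHom_apply, hv2, map_zero]
  -- lift `b`
  have hb' : ∀ i, ∃ b' : Q i, IsNilpotent (b i - b') ∧ b' ^ h = v i * a i := by
    intro i
    refine exists_hroot h (hhQ i) (b i) (v i * a i) (hb i) ?_
    rw [← hu i, ← sub_mul]
    exact (Commute.all _ _).isNilpotent_mul_right (hv1 i)
  choose b' hb'1 hb'2 using hb'
  have hbu : ∀ i, IsUnit (b' i) := by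
    intro i
    have h1 : b' i = b i + (-(b i - b' i)) := by ring
    rw [h1]
    exact (isNilpotent_neg_iff.2 (hb'1 i)).isUnit_add_left_of_commute (hb i) (Commute.all _ _)
  refine ⟨b', hbu, fun i j => ?_⟩
  refine hroot_unique h (hhQ2 i j) (r i j (b j)) (r i j (v j * a j)) _ _ ((hb j).map (r i j))
    ?_ ?_ ?_ ?_
  · rw [← map_sub]; exact (hb'1 j).map (r i j)
  · have h2 : r i j (b j) - g i j * l i j (b' i) =
        (r i j (b j) - g i j * l i j (b i)) + g i j * l i j (b i - b' i) := by
      rw [map_sub]; ring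
    rw [h2]
    exact (Commute.all _ _).isNilpotent_add (hbg i j)
      ((Commute.all _ _).isNilpotent_mul_left ((hb'1 i).map (l i j)))
  · rw [← map_pow, hb'2 j]
  · rw [mul_pow, ← map_pow, hb'2 i, map_mul, map_mul, hvlr i j, hag i j]; ring

/-- Residue characteristic `p`. -/
theorem core_prime (p : ℕ) [hp : Fact p.Prime]
    {I : Type*} (Q : I → Type u) [∀ i, CommRing (Q i)]
    (Q2 : I → I → Type u) [∀ i j, CommRing (Q2 i j)] (hQ2 : ∀ i j, (p : Q2 i j) = 0)
    (l : ∀ i j, Q i →+* Q2 i j) (r : ∀ i j, Q j →+* Q2 i j) (g : ∀ i j, Q2 i j)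
    (h : ℕ) (hh : Nat.Coprime p h)
    (a : ∀ i, Q i) (ha : ∀ i, IsUnit (a i)) (hag : ∀ i j, r i j (a j) = g i j ^ h * l i j (a i))
    (b : ∀ i, Q i) (hb : ∀ i, IsUnit (b i)) (n : ℕ)
    (hbg : ∀ i j, (r i j (b j) - g i j * l i j (b i)) ^ n = 0) :
    ∃ b' : ∀ i, Q i, (∀ i, IsUnit (b' i)) ∧ ∀ i j, r i j (b' j) = g i j * l i j (b' i) := by
  classical
  -- a large power of `p`
  obtain ⟨m, hm⟩ : ∃ m : ℕ, n ≤ p ^ m := ⟨n, (Nat.lt_pow_self hp.out.one_lt).le⟩
  set q := p ^ m with hq
  have hqh : Nat.Coprime q h := Nat.Coprime.pow_left m hh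
  obtain ⟨α, β, hαβ⟩ : ∃ α β : ℕ, q * α = h * β + 1 := by
    have hq1 : 1 ≤ q := Nat.one_le_pow _ _ hp.out.pos
    by_cases h1 : h = 1
    · exact ⟨1, q - 1, by subst h1; omega⟩
    by_cases h0 : h = 0
    · subst h0
      have : q = 1 := by simpa using hqh
      exact ⟨1, 0, by omega⟩
    obtain ⟨α, -, hα⟩ := Nat.exists_mul_mod_eq_one_of_coprime hqh (by omega)
    refine ⟨α, q * α / h, ?_⟩
    have := Nat.div_add_mod (q * α) h
    rw [hα] at this
    exact this.symm
  have key : ∀ i j, r i j (b j) ^ q = g i j ^ q * l i j (b i) ^ q := by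
    intro i j
    have hd : (r i j (b j) - g i j * l i j (b i)) ^ q = 0 := by
      rw [← Nat.sub_add_cancel hm, pow_add, hbg i j, mul_zero]
    by_cases hs : Subsingleton (Q2 i j)
    · exact Subsingleton.elim _ _
    have : Nontrivial (Q2 i j) := not_subsingleton_iff_nontrivial.1 hs
    have : CharP (Q2 i j) p := by
      have h1 := ringChar.dvd (hQ2 i j)
      have h2 : ringChar (Q2 i j) ≠ 1 := by
        intro h3
        have h4 : ((1 : ℕ) : Q2 i j) = 0 := by
          rw [← h3]; exact ringChar.Nat.cast_ringChar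
        rw [Nat.cast_one] at h4
        exact one_ne_zero h4
      have h5 : ringChar (Q2 i j) = p := (Nat.dvd_prime hp.out).1 h1 |>.resolve_left h2
      rw [← h5]
      exact ringChar.charP _
    rw [sub_pow_char_pow, sub_eq_zero, mul_pow] at hd
    exact hd
  choose c hc using fun i => (ha i).exists_right_inv
  have hcu : ∀ i, IsUnit (c i) := fun i => IsUnit.of_mul_eq_one (a i) (by rw [mul_comm]; exact hc i)
  have hcg : ∀ i j, g i j ^ h * r i j (c j) = l i j (c i) := by
    intro i j
    have h1 := congrArg (r i j) (hc j)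
    have h2 := congrArg (l i j) (hc i)
    rw [map_mul, map_one] at h1 h2
    calc g i j ^ h * r i j (c j) = (g i j ^ h * r i j (c j)) * (l i j (a i) * l i j (c i)) := by
          rw [h2, mul_one]
      _ = (r i j (a j) * r i j (c j)) * l i j (c i) := by rw [hag i j]; ring
      _ = l i j (c i) := by rw [h1, one_mul]
  refine ⟨fun i => (b i ^ q) ^ α * c i ^ β, fun i => (((hb i).pow _).pow _).mul ((hcu i).pow _),
    fun i j => ?_⟩
  simp only [map_mul, map_pow]
  rw [key i j, ← hcg i j]
  have : g i j ^ (q * α) = g i j ^ (h * β + 1) := by rw [hαβ]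
  rw [pow_mul, pow_succ, pow_mul] at this
  calc (g i j ^ q * l i j (b i) ^ q) ^ α * r i j (c j) ^ β
      = (g i j ^ q) ^ α * ((l i j (b i) ^ q) ^ α * r i j (c j) ^ β) := by rw [mul_pow]; ring
    _ = _ := by rw [this]; ring

/-- A cochain trivializing a torsion cocycle modulo the radical of `π` is replaced by one trivializing it modulo
`π`. -/
theorem lift_rad
    {R : Type u} [CommRing R] [IsLocalRing R] (π : R)
    (hπ : IsLocalRing.maximalIdeal R = Ideal.span {π})
    {I : Type*} (A : I → Type u) [∀ i, CommRing (A i)] [∀ i, Algebra R (A i)]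
    (A2 : I → I → Type u) [∀ i j, CommRing (A2 i j)] [∀ i j, Algebra R (A2 i j)]
    (l : ∀ i j, A i →ₐ[R] A2 i j) (r : ∀ i j, A j →ₐ[R] A2 i j) (g : ∀ i j, A2 i j)
    (h : ℕ) (hh : IsUnit (h : R))
    (hchar : ∀ q : ℕ, q.Prime → CharP (IsLocalRing.ResidueField R) q → ¬ q ∣ h)
    (a : ∀ i, A i) (ha : ∀ i, IsUnit (a i)) (hag : ∀ i j, r i j (a j) = g i j ^ h * l i j (a i))
    (b : ∀ i, A i)
    (hb : ∀ i, IsUnit (Ideal.Quotient.mk (Ideal.span {algebraMap R (A i) π}) (b i)))
    (n : ℕ) (hbg : ∀ i j, (r i j (b j) - g i j * l i j (b i)) ^ n ∈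
      Ideal.span {algebraMap R (A2 i j) π})
    (hint : ∀ u : ∀ i, A i,
      (∀ i j, l i j (u i) - r i j (u j) ∈ (Ideal.span {algebraMap R (A2 i j) π}).radical) →
      ∃ P : R[X], P.Monic ∧ ∀ i, aeval (u i) P ∈ (Ideal.span {algebraMap R (A i) π}).radical) :
    ∃ b' : ∀ i, A i,
      (∀ i, IsUnit (Ideal.Quotient.mk (Ideal.span {algebraMap R (A i) π}) (b' i))) ∧
      ∀ i j, r i j (b' j) - g i j * l i j (b' i) ∈ Ideal.span {algebraMap R (A2 i j) π} := by
  classical
  let J : ∀ i, Ideal (A i) := fun i => Ideal.span {algebraMap R (A i) π}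
  let J2 : ∀ i j, Ideal (A2 i j) := fun i j => Ideal.span {algebraMap R (A2 i j) π}
  have hlJ : ∀ i j, J i ≤ (J2 i j).comap (l i j) := by
    intro i j
    rw [Ideal.span_singleton_le_iff_mem, Ideal.mem_comap, AlgHom.commutes]
    exact Ideal.mem_span_singleton_self _
  have hrJ : ∀ i j, J j ≤ (J2 i j).comap (r i j) := by
    intro i j
    rw [Ideal.span_singleton_le_iff_mem, Ideal.mem_comap, AlgHom.commutes]
    exact Ideal.mem_span_singleton_self _
  let l' : ∀ i j, (A i ⧸ J i) →ₐ[R] (A2 i j ⧸ J2 i j) := fun i j =>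
    Ideal.quotientMapₐ (J2 i j) (l i j) (hlJ i j)
  let r' : ∀ i j, (A j ⧸ J j) →ₐ[R] (A2 i j ⧸ J2 i j) := fun i j =>
    Ideal.quotientMapₐ (J2 i j) (r i j) (hrJ i j)
  have hl' : ∀ i j (x : A i), l' i j (Ideal.Quotient.mk (J i) x) = Ideal.Quotient.mk (J2 i j) (l i j x) :=
    fun i j x => rfl
  have hr' : ∀ i j (x : A j), r' i j (Ideal.Quotient.mk (J j) x) = Ideal.Quotient.mk (J2 i j) (r i j x) :=
    fun i j x => rfl
  have hag' : ∀ i j, r' i j (Ideal.Quotient.mk (J j) (a j)) =
      (Ideal.Quotient.mk (J2 i j) (g i j)) ^ h * l' i j (Ideal.Quotient.mk (J i) (a i)) := by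
    intro i j
    rw [hr', hl', hag i j, map_mul, map_pow]
  have hmax : ∀ i, ∀ x ∈ IsLocalRing.maximalIdeal R, algebraMap R (A i ⧸ J i) x = 0 := by
    intro i x hx
    rw [hπ] at hx
    obtain ⟨y, rfl⟩ := Ideal.mem_span_singleton'.1 hx
    rw [map_mul]
    have : algebraMap R (A i ⧸ J i) π = Ideal.Quotient.mk (J i) (algebraMap R (A i) π) := rfl
    rw [this, Ideal.Quotient.eq_zero_iff_mem.2 (Ideal.mem_span_singleton_self _), mul_zero]
  have hmax2 : ∀ i j, ∀ x ∈ IsLocalRing.maximalIdeal R, algebraMap R (A2 i j ⧸ J2 i j) x = 0 := by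
    intro i j x hx
    rw [hπ] at hx
    obtain ⟨y, rfl⟩ := Ideal.mem_span_singleton'.1 hx
    rw [map_mul]
    have : algebraMap R (A2 i j ⧸ J2 i j) π =
      Ideal.Quotient.mk (J2 i j) (algebraMap R (A2 i j) π) := rfl
    rw [this, Ideal.Quotient.eq_zero_iff_mem.2 (Ideal.mem_span_singleton_self _), mul_zero]
  have hnil : ∀ {B : Type u} [CommRing B] (K : Ideal B) (x : B),
      IsNilpotent (Ideal.Quotient.mk K x) ↔ x ∈ K.radical := by
    intro B _ K x
    rw [Ideal.mem_radical_iff]
    refine exists_congr fun m => ?_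
    rw [← map_pow, Ideal.Quotient.eq_zero_iff_mem]
  have hmain : ∃ b' : ∀ i, A i ⧸ J i, (∀ i, IsUnit (b' i)) ∧
      ∀ i j, r' i j (b' j) = Ideal.Quotient.mk (J2 i j) (g i j) * l' i j (b' i) := by
    obtain ⟨q, hq⟩ := CharP.exists (IsLocalRing.ResidueField R)
    rcases CharP.char_is_prime_or_zero (IsLocalRing.ResidueField R) q with hqp | hq0
    · have : Fact q.Prime := ⟨hqp⟩
      refine core_prime q (fun i => A i ⧸ J i) (fun i j => A2 i j ⧸ J2 i j) ?_
        (fun i j => (l' i j : (A i ⧸ J i) →+* (A2 i j ⧸ J2 i j)))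
        (fun i j => (r' i j : (A j ⧸ J j) →+* (A2 i j ⧸ J2 i j)))
        (fun i j => Ideal.Quotient.mk (J2 i j) (g i j)) h
        ((Nat.Prime.coprime_iff_not_dvd hqp).2 (hchar q hqp hq))
        (fun i => Ideal.Quotient.mk (J i) (a i)) (fun i => (ha i).map _) hag'
        (fun i => Ideal.Quotient.mk (J i) (b i)) hb n ?_
      · intro i j
        have h1 : (q : R) ∈ IsLocalRing.maximalIdeal R := by
          rw [← IsLocalRing.residue_eq_zero_iff, map_natCast]
          exact CharP.cast_eq_zero _ q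
        have h2 := hmax2 i j _ h1
        rwa [map_natCast] at h2
      · intro i j
        have h1 := Ideal.Quotient.eq_zero_iff_mem.2 (hbg i j)
        rw [map_pow, map_sub, map_mul] at h1
        exact h1
    · subst hq0
      have : CharZero (IsLocalRing.ResidueField R) := CharP.charP_to_charZero _
      refine core_zero (fun i => A i ⧸ J i) (fun i j => A2 i j ⧸ J2 i j) hmax l' r'
        (fun i j => Ideal.Quotient.mk (J2 i j) (g i j)) h hh
        (fun i => Ideal.Quotient.mk (J i) (a i)) (fun i => (ha i).map _) hag'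
        (fun i => Ideal.Quotient.mk (J i) (b i)) hb ?_ ?_
      · intro i j
        refine ⟨n, ?_⟩
        have h1 := Ideal.Quotient.eq_zero_iff_mem.2 (hbg i j)
        rw [map_pow, map_sub, map_mul] at h1
        exact h1
      · intro u hu
        choose u' hu' using fun i => Ideal.Quotient.mk_surjective (u i)
        obtain ⟨P, hP, hPu⟩ := hint u' (by
          intro i j
          rw [← hnil]
          have h1 := hu i j
          rw [← hu' i, ← hu' j, hl', hr', ← map_sub] at h1
          exact h1)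
        refine ⟨P, hP, fun i => ?_⟩
        have h2 := (hnil (J i) _).2 (hPu i)
        rw [← hu' i]
        have h3 : aeval (Ideal.Quotient.mk (J i) (u' i)) P = Ideal.Quotient.mk (J i) (aeval (u' i) P) :=
          aeval_algHom_apply (Ideal.Quotient.mkₐ R (J i)) (u' i) P
        rw [h3]
        exact h2
  obtain ⟨b₁, hb₁, hb₁g⟩ := hmain
  choose b' hb' using fun i => Ideal.Quotient.mk_surjective (b₁ i)
  refine ⟨b', fun i => ?_, fun i j => ?_⟩
  · have := hb₁ i
    rw [← hb' i] at this
    exact this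
  · have h1 := hb₁g i j
    rw [← hb' i, ← hb' j, hl', hr', ← map_mul, Ideal.Quotient.eq] at h1
    exact h1

end Groth.Agent.Models.H66.RedCore
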