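import Groth.Prelude.Def_ModelsG
import Groth.Agent.Models.SpecFib
import Groth.Agent.LoccohA.OmClosed
import Groth.Agent.Fdesc.LocGen
import Mathlib.AlgebraicGeometry.IdealSheaf.Subscheme
import Mathlib.RingTheory.Spectrum.Prime.Topology

/-!
Sections over affine opens of the reduced special fibre of a scheme over a discrete valuation ring.
-/

set_option autoImplicit false
universe u
open CategoryTheory CategoryTheory.Limits AlgebraicGeometry Opposite TopologicalSpace

namespace Groth.Agent.Models.H66.RedGeom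

open Groth.Agent.Fdesc.LocGen Groth.Agent.Models.SpecFib Polynomial

variable {R : Type u} [CommRing R] [IsDomain R] [IsDiscreteValuationRing R] {X : Scheme.{u}}
  (p : X ⟶ Spec (CommRingCat.of R))

/-- The inclusion of the reduced closed fibre. -/
noncomputable abbrev ιr : (Models.redFibreIdeal R (Over.mk p)).subscheme ⟶ X :=
  (Models.redFibreIdeal R (Over.mk p)).subschemeι

theorem fromSpec_comp_str {V : X.Opens} (hV : IsAffineOpen V) :
    hV.fromSpec ≫ p = Spec.map (CommRingCat.ofHom (str R X p V)) := by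
  rw [Groth.Agent.LoccohA.OmClosed.fromSpec_comp]
  rfl

theorem preimage_specialFibreSet (ϖ : R) (hϖ : Irreducible ϖ) {V : X.Opens} (hV : IsAffineOpen V) :
    (hV.fromSpec : Spec Γ(X, V) → X) ⁻¹' (Models.specialFibreSet R (Over.mk p)) =
      PrimeSpectrum.zeroLocus {str R X p V ϖ} := by
  ext q
  have h1 : q ∈ (hV.fromSpec : Spec Γ(X, V) → X) ⁻¹' (Models.specialFibreSet R (Over.mk p)) ↔
      (hV.fromSpec ≫ p).base q = IsLocalRing.closedPoint R := Iff.rfl
  rw [h1, fromSpec_comp_str]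
  have h2 : (Spec.map (CommRingCat.ofHom (str R X p V))).base q =
    PrimeSpectrum.comap (str R X p V) q := rfl
  rw [h2]
  change _ ↔ ({str R X p V ϖ} : Set Γ(X, V)) ⊆ ((q : PrimeSpectrum Γ(X, V)).asIdeal : Set Γ(X, V))
  rw [Set.singleton_subset_iff]
  constructor
  · intro h3
    have h4 : ϖ ∈ (PrimeSpectrum.comap (str R X p V) q).asIdeal := by
      rw [h3]
      exact (IsLocalRing.mem_maximalIdeal ϖ).2 hϖ.not_isUnit
    exact h4
  · intro h3
    apply PrimeSpectrum.ext
    refine ((IsLocalRing.maximalIdeal.isMaximal R).eq_of_le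
      (PrimeSpectrum.comap (str R X p V) q).isPrime.ne_top ?_).symm
    rw [hϖ.maximalIdeal_eq, Ideal.span_singleton_le_iff_mem]
    exact h3

theorem redFibreIdeal_ideal (ϖ : R) (hϖ : Irreducible ϖ) {V : X.Opens} (hV : IsAffineOpen V) :
    (Models.redFibreIdeal R (Over.mk p)).ideal ⟨V, hV⟩ =
      (Ideal.span {str R X p V ϖ}).radical := by
  rw [← PrimeSpectrum.vanishingIdeal_zeroLocus_eq_radical, PrimeSpectrum.zeroLocus_span,
    ← preimage_specialFibreSet p ϖ hϖ hV]
  rfl

theorem app_surj (V : X.Opens) (hV : IsAffineOpen V) : Function.Surjective ((ιr p).app V).hom :=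
  (Models.redFibreIdeal R (Over.mk p)).subschemeι_app_surjective ⟨V, hV⟩

/-- membership in the radical of the ideal generated by the uniformizer in terms of the reduced special fibre -/
theorem mem_rad_iff (ϖ : R) (hϖ : Irreducible ϖ) (V : X.Opens) (hV : IsAffineOpen V) (s : Γ(X, V)) :
    s ∈ (Ideal.span {str R X p V ϖ}).radical ↔ ((ιr p).app V).hom s = 0 := by
  rw [← redFibreIdeal_ideal p ϖ hϖ hV, ← RingHom.mem_ker]
  have h := (Models.redFibreIdeal R (Over.mk p)).ker_subschemeι_app ⟨V, hV⟩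
  rw [← h]

theorem app_ores (V W : X.Opens) (h : W ≤ V) (s : Γ(X, V)) :
    ((ιr p).app W).hom (ores h s) =
      ores ((ιr p).preimage_mono h) (((ιr p).app V).hom s) :=
  congrArg (fun φ => φ.hom s) ((ιr p).naturality (homOfLE h).op)

/-- functions on the reduced special fibre given by compatible local functions are integral over `R`. -/
theorem integral_red [IsProper p] (ϖ : R) (hϖ : Irreducible ϖ) {I : Type*} (V : I → X.Opens)
    (hcov : ∀ x : X, ∃ i, x ∈ V i) (hV : ∀ x, IsAffineOpen (V x))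
    (hV2 : ∀ x y, IsAffineOpen (V x ⊓ V y))
    (u : ∀ x, Γ(X, V x))
    (hu : ∀ x y, ores inf_le_left (u x) - ores inf_le_right (u y) ∈
      (Ideal.span {str R X p (V x ⊓ V y) ϖ}).radical) :
    ∃ P : R[X], P.Monic ∧ ∀ x, eval₂ (str R X p (V x)) (u x) P ∈
      (Ideal.span {str R X p (V x) ϖ}).radical := by
  set i := ιr p with hi
  -- the glued function
  obtain ⟨w, hw⟩ := ores_glue (V := ⊤) (fun x => i ⁻¹ᵁ (V x)) (fun x => le_top) (by
      intro z _
      obtain ⟨x, hx⟩ := hcov (i z)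
      exact TopologicalSpace.Opens.mem_iSup.2 ⟨x, hx⟩) (fun x => (i.app (V x)).hom (u x)) (by
    intro x y
    have h1 := (mem_rad_iff p ϖ hϖ _ (hV2 x y) _).1 (hu x y)
    rw [map_sub, sub_eq_zero, app_ores, app_ores] at h1
    exact h1)
  have huc : UniversallyClosed (i ≫ p) := inferInstance
  obtain ⟨P, hP1, hP2⟩ := isIntegral_appTop_of_universallyClosed (i ≫ p) w
  refine ⟨P.map (Scheme.ΓSpecIso (CommRingCat.of R)).hom.hom, hP1.map _, fun x => ?_⟩
  rw [mem_rad_iff p ϖ hϖ _ (hV x)]
  rw [hom_eval₂, eval₂_map]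
  have h3 : (((i.app (V x)).hom.comp (str R X p (V x))).comp
      (Scheme.ΓSpecIso (CommRingCat.of R)).hom.hom) =
      (ores (le_top : i ⁻¹ᵁ (V x) ≤ ⊤)).comp (i ≫ p).appTop.hom := by
    ext z
    have h4 : (Scheme.ΓSpecIso (CommRingCat.of R)).inv.hom
        ((Scheme.ΓSpecIso (CommRingCat.of R)).hom.hom z) = z := by
      change ((Scheme.ΓSpecIso (CommRingCat.of R)).hom ≫ (Scheme.ΓSpecIso (CommRingCat.of R)).inv).hom z = z
      rw [Iso.hom_inv_id]; rfl
    simp only [RingHom.comp_apply, str, h4]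
    have h5 : (p.appLE ⊤ (V x) le_top).hom z = ores (le_top : V x ≤ ⊤) (p.appTop.hom z) := rfl
    rw [h5, app_ores]
    rfl
  rw [h3, ← hw x]
  have h6 := congrArg (ores (le_top : i ⁻¹ᵁ (V x) ≤ ⊤)) hP2
  rw [map_zero, hom_eval₂] at h6
  exact h6

end Groth.Agent.Models.H66.RedGeom
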